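import Cfsg.Agent.H622.Van.Chain

/-!
# S4816, orthogonal rows: the elements permuting `J = A_m ⊔ A_1` (helper812)

`J` = all nodes but `j`, a chain `k : Fin m ↪ I` (`m ≥ 2`) and an isolated node `e`; `j` is joined to the last node of the
chain (and to `e`), `A (k (m-1)) j = -1`.

* `flip_last` : an element `w ∉ W_J` which permutes the simple roots of `J` reverses the chain and fixes `e`.
-/

set_option autoImplicit false
set_option linter.unusedSectionVars false

namespace Cfsg.Agent.H812.RIM

open Cfsg CoxeterSystem Cfsg.Agent.ChevalleyStructure.CoxeterGeom Cfsg.Agent.Tits.Roots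
  Cfsg.Agent.Tits.Core Cfsg.Agent.Nodes.Reps Cfsg.Agent.Nodes.BNOf Cfsg.Agent.Nodes.StabComb
  Cfsg.Agent.Nodes.RootsA Cfsg.Agent.Nodes.SubComb Cfsg.Agent.Nodes.LeviDec Cfsg.Agent.Nodes.OppDec
  Cfsg.Agent.Nodes.Bruhat
open Cfsg.Agent.LieRecognition.BNCox (cA cA_apply)
open Cfsg.Agent.LieRecognition.CoxClass (mA)
open Cfsg.Agent.H53.HC (Perm)
open Cfsg.Agent.H622.Van

variable {I W : Type*} [Fintype I] [DecidableEq I] [Group W] {M : CoxeterMatrix I}
  {cs : CoxeterSystem M W} {A : I → I → ℤ} {h : IsCartan M A}

/-- a node of the chain is not mapped to the isolated node -/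
theorem chain_not_last [Finite W] {m : ℕ} (hm : 2 ≤ m) (k : Fin m ↪ I) (hk : ∀ i j, M (k i) (k j) = cA m i j) {e : I}
    (hMe : ∀ a, M (k a) e = 2) {w : W} (hw : Perm cs h (Set.range k ∪ {e}) w) (a : Fin m) :
    rep cs h w (sr (k a)) ≠ sr e := by
  intro ha
  -- a neighbour
  obtain ⟨b, hb⟩ : ∃ b : Fin m, M (k a) (k b) = 3 := by
    by_cases h1 : a.val + 1 < m
    · refine ⟨⟨a.val + 1, h1⟩, ?_⟩
      rw [hk, cA_apply]
      unfold mA
      rw [if_neg (by simp), if_pos (Or.inl rfl)]
    · refine ⟨⟨a.val - 1, by omega⟩, ?_⟩
      rw [hk, cA_apply]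
      unfold mA
      have h2 := a.2
      rw [if_neg (by simp only; omega), if_pos (Or.inr (by simp only; omega))]
  have hA : A (k a) (k b) = -1 := (Cfsg.Agent.H35.ExcIdx.cartan_three h hb).1
  obtain ⟨x, hx, hbx⟩ := hw.2 (k b) (Or.inl ⟨b, rfl⟩)
  have h3 := H53.HC.cartan_rep ha hbx
  rw [hA] at h3
  rcases hx with ⟨c, rfl⟩ | rfl
  · have := (Cfsg.Agent.H35.ExcIdx.cartan_two h (hMe c)).2
    omega
  · have := h.diag x
    omega

/-- **The flip.** -/
theorem flip_last [Finite W] {m : ℕ} (hm : 2 ≤ m) (k : Fin m ↪ I) (hk : ∀ i j, M (k i) (k j) = cA m i j) {e j : I}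
    (hMe : ∀ a, M (k a) e = 2) (hJ : ∀ i, i ∈ Set.range k ∪ {e} ↔ i ≠ j)
    (hA : ∀ a : Fin m, A (k a) j = if a.val + 1 = m then -1 else 0)
    {w : W} (hw : Perm cs h (Set.range k ∪ {e}) w) (hwJ : w ∉ WJ cs (Set.range k ∪ {e})) :
    (∀ i, rep cs h w (sr (k i)) = sr (k (Fin.rev i))) ∧ rep cs h w (sr e) = sr e := by
  have hw' : Perm cs h (Set.range k ∪ {e}) w⁻¹ := ⟨by rw [inv_inv]; exact hw.2, hw.1⟩
  have he : rep cs h w (sr e) = sr e := by
    obtain ⟨x, hx, hex⟩ := hw.2 e (Or.inr rfl)
    rcases hx with ⟨c, rfl⟩ | rfl
    · exfalso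
      refine chain_not_last hm k hk hMe hw' c ?_
      rw [← hex, rep_inv_apply]
    · exact hex
  refine ⟨?_, he⟩
  have h1 : ∀ i : Fin m, ∃ i' : Fin m, rep cs h w (sr (k i)) = sr (k i') := by
    intro i
    obtain ⟨x, hx, hix⟩ := hw.2 (k i) (Or.inl ⟨i, rfl⟩)
    rcases hx with ⟨i', rfl⟩ | rfl
    · exact ⟨i', hix⟩
    · exact absurd hix (chain_not_last hm k hk hMe hw i)
  choose π hπ using h1
  have hinj : Function.Injective π := by
    intro a b hab
    have h2 : rep cs h w (sr (k a)) = rep cs h w (sr (k b)) := by rw [hπ, hπ, hab]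
    have h3 := congrArg (rep cs h w⁻¹) h2
    rw [rep_inv_apply, rep_inv_apply] at h3
    exact k.injective (sr_inj h3)
  have hcar : ∀ a b : Fin m, A (k (π a)) (k (π b)) = A (k a) (k b) := fun a b => H53.HC.cartan_rep (hπ a) (hπ b)
  have hadj : ∀ a b : Fin m, a.val + 1 = b.val → (π a).val + 1 = (π b).val ∨ (π b).val + 1 = (π a).val := by
    intro a b hab
    have h2 : M (k a) (k b) = 3 := by
      rw [hk, cA_apply]
      unfold mA
      rw [if_neg (by omega), if_pos (Or.inl hab)]
    have h3 := hcar a b
    rw [(Cfsg.Agent.H35.ExcIdx.cartan_three h h2).1] at h3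
    by_contra hcon
    push Not at hcon
    have h4 : M (k (π a)) (k (π b)) = 2 := by
      rw [hk, cA_apply]
      unfold mA
      rw [if_neg, if_neg]
      · rintro (h5 | h5)
        · exact hcon.1 h5
        · exact hcon.2 h5
      · intro h5
        have := hinj (Fin.ext h5)
        rw [this] at hab
        omega
    rw [(Cfsg.Agent.H35.ExcIdx.cartan_two h h4).1] at h3
    omega
  let g : ℕ → ℤ := fun i => if hi : i < m then (π ⟨i, hi⟩).val else 0
  have hg : ∀ (i : ℕ) (hi : i < m), g i = (π ⟨i, hi⟩).val := fun i hi => dif_pos hi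
  rcases walk (m := m) g (by
      intro i hi
      rw [hg (i + 1) hi, hg i (by omega)]
      rcases hadj ⟨i, by omega⟩ ⟨i + 1, hi⟩ rfl with h2 | h2 <;> omega) (by
      intro i hi h2
      rw [hg (i + 2) hi, hg i (by omega)] at h2
      have h3 : π ⟨i + 2, hi⟩ = π ⟨i, by omega⟩ := Fin.ext (by exact_mod_cast h2)
      have h4 := congrArg Fin.val (hinj h3)
      simp at h4) (by
      intro i hi
      rw [hg i hi]
      have := (π ⟨i, hi⟩).2
      omega) with h2 | h2
  · exfalso
    have hfix : ∀ i, i ≠ j → rep cs h w (sr i) = sr i := by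
      intro i hi
      rcases (hJ i).2 hi with ⟨a, rfl⟩ | rfl
      · rw [hπ]
        congr 2
        have h3 := h2 a.val a.2
        rw [hg a.val a.2] at h3
        exact Fin.ext (by exact_mod_cast h3)
      · exact he
    -- the vector `z`
    classical
    let z : I → ℤ := fun i => ∑ a : Fin m, if k a = i then ((a.val : ℤ) + 1) else 0
    have hzs : ∀ f : I → ℤ, ∑ i, z i * f i = ∑ a : Fin m, ((a.val : ℤ) + 1) * f (k a) := by
      intro f
      show ∑ i, (∑ a : Fin m, if k a = i then ((a.val : ℤ) + 1) else 0) * f i = _
      simp only [Finset.sum_mul]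
      rw [Finset.sum_comm]
      refine Finset.sum_congr rfl fun a _ => ?_
      simp only [ite_mul, zero_mul]
      rw [Finset.sum_ite_eq]
      simp
    have hkj : ∀ a, k a ≠ j := fun a => (hJ (k a)).1 (Or.inl ⟨a, rfl⟩)
    have hz0 : z j = 0 := Finset.sum_eq_zero fun a _ => if_neg (hkj a)
    have hcA : ∀ a b : Fin m, A (k a) (k b) =
        if a = b then 2 else if a.val + 1 = b.val ∨ b.val + 1 = a.val then -1 else 0 := by
      intro a b
      by_cases hab : a = b
      · rw [if_pos hab, hab]
        exact h.diag _
      · rw [if_neg hab]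
        split_ifs with h5
        · refine (Cfsg.Agent.H35.ExcIdx.cartan_three h ?_).1
          rw [hk, cA_apply]
          unfold mA
          rw [if_neg (fun h6 => hab (Fin.ext h6)), if_pos h5]
        · refine (Cfsg.Agent.H35.ExcIdx.cartan_two h ?_).1
          rw [hk, cA_apply]
          unfold mA
          rw [if_neg (fun h6 => hab (Fin.ext h6)), if_neg h5]
    have hz : ∀ c, c ≠ j → ((m : ℤ) + 1) ∣ ∑ i, z i * A i c := by
      intro c hc
      rw [hzs fun i => A i c]
      rcases (hJ c).2 hc with ⟨b, rfl⟩ | rfl
      · simp only [hcA]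
        -- the sum over the chain
        have key : ∑ a : Fin m, ((a.val : ℤ) + 1) *
            (if a = b then 2 else if a.val + 1 = b.val ∨ b.val + 1 = a.val then -1 else 0) =
            if b.val + 1 = m then (m : ℤ) + 1 else 0 := by
          have e1 : ∀ a : Fin m, ((a.val : ℤ) + 1) *
              (if a = b then 2 else if a.val + 1 = b.val ∨ b.val + 1 = a.val then -1 else 0) =
              (if a.val = b.val then 2 * ((b.val : ℤ) + 1) else 0) - (if a.val + 1 = b.val then (b.val : ℤ) else 0) -
                (if a.val = b.val + 1 then (b.val : ℤ) + 2 else 0) := by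
            intro a
            by_cases c1 : a = b
            · subst c1
              simp
              ring
            · have c1' : a.val ≠ b.val := fun h => c1 (Fin.ext h)
              rw [if_neg c1, if_neg c1']
              by_cases c2 : a.val + 1 = b.val
              · rw [if_pos (Or.inl c2), if_pos c2, if_neg (by omega)]
                have : (b.val : ℤ) = a.val + 1 := by omega
                rw [this]
                ring
              · by_cases c3 : b.val + 1 = a.val
                · rw [if_pos (Or.inr c3), if_neg c2, if_pos c3.symm]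
                  have : (a.val : ℤ) = b.val + 1 := by omega
                  rw [this]
                  ring
                · rw [if_neg (by rintro (c | c) <;> contradiction), if_neg c2, if_neg (fun c => c3 c.symm)]
                  ring
          rw [Finset.sum_congr rfl fun a _ => e1 a, Finset.sum_sub_distrib, Finset.sum_sub_distrib]
          have s1 : ∑ a : Fin m, (if a.val = b.val then 2 * ((b.val : ℤ) + 1) else 0) = 2 * ((b.val : ℤ) + 1) := by
            rw [Finset.sum_eq_single b]
            · simp
            · intro a _ hab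
              rw [if_neg (fun h => hab (Fin.ext h))]
            · simp
          have s2 : ∑ a : Fin m, (if a.val + 1 = b.val then (b.val : ℤ) else 0) = b.val := by
            by_cases c : b.val = 0
            · rw [Finset.sum_eq_zero]
              · rw [c]; rfl
              · intro a _
                rw [if_neg (by omega)]
            · rw [Finset.sum_eq_single (⟨b.val - 1, by omega⟩ : Fin m)]
              · rw [if_pos (by simp only; omega)]
              · intro a _ hab
                rw [if_neg]
                intro h
                apply hab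
                apply Fin.ext
                simp only
                omega
              · simp
          have s3 : ∑ a : Fin m, (if a.val = b.val + 1 then (b.val : ℤ) + 2 else 0) =
              if b.val + 1 = m then 0 else (b.val : ℤ) + 2 := by
            by_cases c : b.val + 1 = m
            · rw [if_pos c, Finset.sum_eq_zero]
              intro a _
              rw [if_neg (by omega)]
            · rw [if_neg c, Finset.sum_eq_single (⟨b.val + 1, by omega⟩ : Fin m)]
              · rw [if_pos rfl]
              · intro a _ hab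
                rw [if_neg]
                intro h
                exact hab (Fin.ext h)
              · simp
          rw [s1, s2, s3]
          split_ifs with c
          · have : (b.val : ℤ) + 1 = m := by exact_mod_cast c
            linarith
          · ring
        rw [key]
        split_ifs
        · exact dvd_rfl
        · exact dvd_zero _
      · rw [Finset.sum_eq_zero]
        · exact dvd_zero _
        · intro a _
          rw [(Cfsg.Agent.H35.ExcIdx.cartan_two h (hMe a)).1, mul_zero]
    have hzj : ∑ i, z i * A i j = -(m : ℤ) := by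
      rw [hzs fun i => A i j]
      simp only [hA]
      rw [Finset.sum_eq_single (⟨m - 1, by omega⟩ : Fin m)]
      · rw [if_pos (by simp only; omega)]
        have : (((⟨m - 1, by omega⟩ : Fin m) : ℕ) : ℤ) = m - 1 := by
          simp only
          omega
        rw [this]
        ring
      · intro a _ hab
        rw [if_neg, mul_zero]
        intro h
        apply hab
        apply Fin.ext
        simp only
        omega
      · simp
    have h5 := dvd_of_fix hJ hw hwJ hfix hz0 hz
    rw [hzj] at h5
    have h6 : ((m : ℤ) + 1) ∣ 2 := by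
      have e : (2 : ℤ) = 2 * ((m : ℤ) + 1) + 2 * -(m : ℤ) := by ring
      rw [e]
      exact Dvd.dvd.add (Dvd.intro_left _ rfl) h5
    have := Int.le_of_dvd (by norm_num) h6
    omega
  · intro i
    rw [hπ]
    congr 2
    have h3 := h2 i.val i.2
    rw [hg i.val i.2] at h3
    apply Fin.ext
    rw [Fin.val_rev]
    have h4 := i.2
    change ((π i).val : ℤ) = m - 1 - i.val at h3
    omega

end Cfsg.Agent.H812.RIM
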