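import Cfsg.Agent.H345.CusU
import Cfsg.Agent.H886.RIM.GLn

/-!
# S4816, RIM-L-PSU: cuspidal data for the unitary groups with prescribed central character (helper812)

`exists_cusU_mu` : for `|K| = q ^ 2`, `k ≥ 1` (`q ≥ 4` if `k = 1`) and `μ : Kˣ →* ℂˣ` there is a cuspidal irreducible
character `c` of `GL_k(K)` which is not fixed by the twisted contragredient `A ↦ σ(A)⁻ᵀ`, the scalars of norm one acting
by `μ`.
-/

set_option autoImplicit false

open scoped ComplexConjugate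
open Cfsg

namespace Cfsg.Agent.H812.RIM

open Cfsg.Agent.OddOrderCharacters.Clifford Cfsg.Agent.Characters MulAction Module Cfsg.Agent.H53.HC
open Cfsg.Agent.H139.Cusp Cfsg.Agent.H477.HC

universe u

theorem size_reg' {q k i a : ℕ} (hq : 2 ≤ q) (hi : 0 < i) (hik : i < k) (ha : 0 < a) (haq : a ≤ q + 1) :
    ¬ ((q ^ 2) ^ k - 1) ∣ a * ((q ^ 2) ^ i - 1) := by
  intro h
  obtain ⟨h1, h2⟩ := H345.CusU.size_reg hq hi hik
  have h3 : 0 < (q ^ 2) ^ i - 1 := by
    have : 1 < (q ^ 2) ^ i := Nat.one_lt_pow hi.ne' (by nlinarith)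
    omega
  have h4 := Nat.le_of_dvd (Nat.mul_pos ha h3) h
  have h5 : a * ((q ^ 2) ^ i - 1) ≤ (q + 1) * ((q ^ 2) ^ i - 1) := Nat.mul_le_mul_right _ haq
  omega

theorem size_dual' {q k i a : ℕ} (hq : 2 ≤ q) (hk : 2 ≤ k) (hik : i < k) (ha : 0 < a) (haq : a ≤ q + 1) :
    ¬ ((q ^ 2) ^ k - 1) ∣ a * (q ^ 2) ^ i + a * q := by
  intro h
  have hkk : (q ^ 2) ^ k = (q ^ 2) ^ (k - 1) * q ^ 2 := by
    rw [← pow_succ]; congr 1; omega
  have hb : q ^ 2 ≤ (q ^ 2) ^ (k - 1) := by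
    calc q ^ 2 = (q ^ 2) ^ 1 := (pow_one _).symm
      _ ≤ _ := Nat.pow_le_pow_right (by positivity) (by omega)
  have hq2 : q * 2 ≤ q ^ 2 := by nlinarith
  rcases Nat.eq_zero_or_pos i with rfl | hi
  · rw [pow_zero, mul_one] at h
    have h1 := Nat.le_of_dvd (by positivity) h
    have h0 : a + a * q ≤ (q + 1) + (q + 1) * q := Nat.add_le_add haq (Nat.mul_le_mul_right _ haq)
    set b := (q ^ 2) ^ (k - 1) with hbdef
    have h2 : q ^ 2 * q ^ 2 ≤ b * q ^ 2 := Nat.mul_le_mul_right _ hb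
    have h3 : 4 * q ^ 2 ≤ q ^ 2 * q ^ 2 := Nat.mul_le_mul_right _ (by nlinarith)
    have h4 : q + 1 + (q + 1) * q = q ^ 2 + 2 * q + 1 := by ring
    rw [h4] at h0
    rw [hkk] at h1
    omega
  · -- remove the factor `q`
    have hco : Nat.Coprime ((q ^ 2) ^ k - 1) q := by
      have h1 : q ∣ (q ^ 2) ^ k := dvd_pow (Dvd.intro_left q (by ring)) (by omega)
      obtain ⟨c, hc⟩ := h1
      have h2 : 1 ≤ (q ^ 2) ^ k := Nat.one_le_pow _ _ (by positivity)
      rw [Nat.coprime_iff_gcd_eq_one]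
      have h3 : Nat.gcd ((q ^ 2) ^ k - 1) q ∣ (q ^ 2) ^ k - 1 := Nat.gcd_dvd_left _ _
      have h4 : Nat.gcd ((q ^ 2) ^ k - 1) q ∣ (q ^ 2) ^ k := (Nat.gcd_dvd_right _ _).trans ⟨c, hc⟩
      have h5 := (Nat.dvd_sub_iff_right (by omega) h4).1 h3
      exact Nat.dvd_one.1 h5
    set b := (q ^ 2) ^ (k - 1) with hbdef
    obtain ⟨j, rfl⟩ : ∃ j, i = j + 1 := ⟨i - 1, by omega⟩
    have h6 : a * (q ^ 2) ^ (j + 1) + a * q = (a * ((q ^ 2) ^ j * q + 1)) * q := by
      rw [pow_succ]; ring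
    rw [h6] at h
    have h7 := hco.dvd_of_dvd_mul_right h
    have h8 := Nat.le_of_dvd (by positivity) h7
    have h9 : (q ^ 2) ^ j * q ^ 2 ≤ b := by
      rw [← pow_succ]; exact Nat.pow_le_pow_right (by positivity) (by omega)
    set d := (q ^ 2) ^ j with hd
    have hd1 : 1 ≤ d := Nat.one_le_pow _ _ (by positivity)
    have h0 : a * (d * q + 1) ≤ (q + 1) * (d * q + 1) := Nat.mul_le_mul_right _ haq
    have h10 : (q + 1) * (d * q + 1) = d * q ^ 2 + d * q + q + 1 := by ring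
    rw [h10] at h0
    rw [hkk] at h8
    have h11 : d * q ^ 2 * 4 ≤ b * q ^ 2 := by
      calc d * q ^ 2 * 4 ≤ d * q ^ 2 * q ^ 2 := Nat.mul_le_mul_left _ (by nlinarith)
        _ ≤ b * q ^ 2 := Nat.mul_le_mul_right _ h9
    have h12 : d * q * 2 ≤ d * q ^ 2 := by
      have : d * (q * 2) ≤ d * q ^ 2 := Nat.mul_le_mul_left _ hq2
      linarith
    have h13 : q ≤ d * q := Nat.le_mul_of_pos_left _ hd1
    have h14 : q ^ 2 ≤ d * q ^ 2 := Nat.le_mul_of_pos_left _ hd1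
    omega

/-- the cuspidal datum of `θ ^ a` -/
theorem cusU_of {K : Type u} [Field K] [Finite K] {q : ℕ} (hq : Nat.card K = q ^ 2) {k : ℕ} (hk0 : 0 < k)
    {L : Type} [Field L] [Finite L] [Algebra K L] (hL : Module.finrank K L = k) {θ : L →*₀ ℂ}
    (hθ : Function.Injective θ) {a : ℕ} (ha : a ≠ 0)
    (hreg : ∀ i, 0 < i → i < k → ¬ ((q ^ 2) ^ k - 1) ∣ a * ((q ^ 2) ^ i - 1))
    (hdual : ∀ i, i < k → ¬ ((q ^ 2) ^ k - 1) ∣ a * (q ^ 2) ^ i + a * q) :
    ∃ c : GL (Fin k) K → ℂ, Cus K k (CForm.powHom hq) (fun z => z = 1) c ∧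
      ∀ z : Kˣ, c (Matrix.GeneralLinearGroup.scalar (Fin k) z) = c 1 * θ (algebraMap K L (z : K)) ^ a := by
  classical
  have hq2 : 2 ≤ q := CForm.two_le_of_card hq
  have hcardL : Nat.card Lˣ = Nat.card K ^ k - 1 := by
    rw [Nat.card_units, Module.natCard_eq_pow_finrank (K := K), hL]
  have hb : a * q ≠ 0 := Nat.mul_ne_zero ha (by omega)
  have hR : Regular K k (powTheta θ a ha) := (regular_powTheta_iff hθ ha hL).2 (by
    intro i hi hik h
    rw [hq] at h
    exact hreg i hi hik h)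
  have hscal : ∀ z : Kˣ, psi L (powTheta θ a ha) (Matrix.GeneralLinearGroup.scalar (Fin k) z) =
      psi L (powTheta θ a ha) (1 : GL (Fin k) K) * θ (algebraMap K L (z : K)) ^ a := by
    intro z
    have h1 := psi_scalar (powTheta θ a ha) hL z 1
    rw [mul_one] at h1
    rw [h1, powTheta_apply, mul_comm]
  refine ⟨psi L (powTheta θ a ha), ⟨psi_isIrr _ hL hR, psi_isCusp L _, ?_, ?_, ?_⟩, hscal⟩
  · intro h
    have h1 : ∀ g : ((Fin k → K) →ₗ[K] (Fin k → K))ˣ,
        cusp L (powTheta θ a ha) (g : (Fin k → K) →ₗ[K] (Fin k → K)) =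
        cusp L (conjTheta (powTheta θ (a * q) hb)) (g : (Fin k → K) →ₗ[K] (Fin k → K)) := by
      intro g
      let A : GL (Fin k) K := Matrix.GeneralLinearGroup.toLin.symm g
      have h2 := congrFun h A
      rw [Function.comp_apply, MonoidHom.comp_apply,
        H345.CusU.psi_map_pow (powTheta θ a ha) (powTheta θ (a * q) hb) hL hq
          (fun x => by rw [powTheta_apply, powTheta_apply, map_pow, ← pow_mul, mul_comm q]),
        psi_invT _ hL] at h2
      have h4 : ∀ θ₁ : L →*₀ ℂ, psi L θ₁ A = cusp L θ₁ (g : (Fin k → K) →ₗ[K] (Fin k → K)) := by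
        intro θ₁
        have h5 : Matrix.GeneralLinearGroup.toLin A = g := MulEquiv.apply_symm_apply _ g
        rw [← h5]
        rfl
      rw [h4, h4, cusp_star] at h2
      exact h2.symm
    obtain ⟨i, hi, h2⟩ := (cusp_eq_iff (V := Fin k → K) (powTheta θ a ha)
      (conjTheta (powTheta θ (a * q) hb))
      (by rw [Module.finrank_fin_fun, hL]) (by rw [hL]; exact hR)).1 h1
    rw [hL] at hi
    have h3 := (conj_powTheta_eq_iff hθ ha hb (pow_ne_zero i (Nat.card_pos (α := K)).ne')).1 h2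
    rw [hcardL, hq] at h3
    exact hdual i hi h3
  · rintro z rfl
    rw [map_one]
  · rw [psi_one L _ hk0, degP_eq_Ico]

/-- **cuspidal data with prescribed central character** -/
theorem exists_cusU_mu {K : Type u} [Field K] [Finite K] {q : ℕ} (hq : Nat.card K = q ^ 2) (k : ℕ) (hk : 1 ≤ k)
    (h1 : k = 1 → 4 ≤ q) (μ : Kˣ →* ℂˣ) :
    ∃ c : GL (Fin k) K → ℂ, Cus K k (CForm.powHom hq) (fun z => z = 1) c ∧
      ∀ z : Kˣ, z ^ (q + 1) = 1 → c (Matrix.GeneralLinearGroup.scalar (Fin k) z) = c 1 * (μ z : ℂ) := by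
  classical
  have hq2 : 2 ≤ q := CForm.two_le_of_card hq
  obtain ⟨L, _, _, _, hL⟩ := exists_L K k hk
  obtain ⟨θ, hθ⟩ := exists_theta L
  obtain ⟨j, hj1, -, hj⟩ := H886.RIM.exists_pow_mu hθ μ
  -- the exponent modulo `q + 1`
  have key : ∀ a : ℕ, a ≡ j [MOD q + 1] → ∀ z : Kˣ, z ^ (q + 1) = 1 → θ (algebraMap K L (z : K)) ^ a = (μ z : ℂ) := by
    intro a ha z hz
    rw [← hj z]
    have hz1 : θ (algebraMap K L (z : K)) ^ (q + 1) = 1 := by
      rw [← map_pow, ← map_pow, ← Units.val_pow_eq_pow_val, hz, Units.val_one, map_one, map_one]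
    rw [← Nat.div_add_mod a (q + 1), ← Nat.div_add_mod j (q + 1), pow_add, pow_add, pow_mul, pow_mul, hz1, one_pow,
      one_pow, one_mul, one_mul]
    congr 1
  set a₀ := (j - 1) % (q + 1) + 1 with ha₀
  have ha₀1 : 1 ≤ a₀ := by omega
  have ha₀q : a₀ ≤ q + 1 := by
    have := Nat.mod_lt (j - 1) (show 0 < q + 1 by omega)
    omega
  have ha₀j : a₀ ≡ j [MOD q + 1] := by
    have h2 : (j - 1) % (q + 1) ≡ j - 1 [MOD q + 1] := Nat.mod_modEq _ _
    have h3 := h2.add_right 1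
    rwa [Nat.sub_add_cancel hj1] at h3
  rcases Nat.lt_or_ge 1 k with hk2 | hk2
  · obtain ⟨c, hc, hcz⟩ := cusU_of hq hk hL hθ (a := a₀) (by omega)
      (fun i hi hik => size_reg' hq2 hi hik ha₀1 ha₀q) (fun i hik => size_dual' hq2 hk2 hik ha₀1 ha₀q)
    exact ⟨c, hc, fun z hz => by rw [hcz, key _ ha₀j z hz]⟩
  · obtain rfl : k = 1 := by omega
    have hq4 := h1 rfl
    obtain ⟨a, ha1, ha2, ha3⟩ : ∃ a, 1 ≤ a ∧ a ≡ j [MOD q + 1] ∧ ¬ (q - 1) ∣ a := by
      by_cases h2 : (q - 1) ∣ a₀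
      · refine ⟨a₀ + (q + 1), by omega, ?_, fun h3 => ?_⟩
        · have : a₀ + (q + 1) ≡ a₀ [MOD q + 1] := Nat.add_modEq_right
          exact this.trans ha₀j
        · have h4 : (q - 1) ∣ q + 1 := (Nat.dvd_add_right h2).1 h3
          have h5 : (q - 1) ∣ 2 := by
            have h6 : q + 1 = (q - 1) + 2 := by omega
            rw [h6] at h4
            exact (Nat.dvd_add_right dvd_rfl).1 h4
          have := Nat.le_of_dvd (by norm_num) h5
          omega
      · exact ⟨a₀, ha₀1, ha₀j, h2⟩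
    obtain ⟨c, hc, hcz⟩ := cusU_of hq hk hL hθ (a := a) (by omega) (fun i hi hik => by omega) (fun i hik => by
      obtain rfl : i = 0 := by omega
      rw [pow_zero, pow_one, mul_one]
      intro h3
      apply ha3
      have h4 : q ^ 2 - 1 = (q - 1) * (q + 1) := by
        have := Nat.sq_sub_sq q 1
        rw [one_pow, mul_comm] at this
        exact this
      have h5 : a + a * q = a * (q + 1) := by ring
      rw [h4, h5] at h3
      exact Nat.dvd_of_mul_dvd_mul_right (by omega) h3)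
    exact ⟨c, hc, fun z hz => by rw [hcz, key _ ha2 z hz]⟩

end Cfsg.Agent.H812.RIM
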