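import Cfsg.Agent.H497.RIM.PSUThree
import Cfsg.Agent.H990.TC.Univ
import Cfsg.Agent.S2089

/-!
# S4816, RIM-L-PSU: `PSU_3(q)`, `p ∣ q - 1` (helper812)

`nball_psu3` : from `H497.RIM.nb_psu3` and the Schur multiplier `S2089`.
-/

set_option autoImplicit false

namespace Cfsg.Agent.H812.RIM

open Cfsg Cfsg.Agent.H665.RIM

universe u

theorem nball_psu3 {F : Type u} [Field F] [Fintype F] {q : ℕ} (hF : Fintype.card F = q ^ 2) (hq : 2 < q) {p : ℕ}
    (hp : p.Prime) (hp2 : p ≠ 2) (hd : p ∣ q - 1) : NBall p (Cfsg.PSU 3 F q) := by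
  intro m hm hpm
  by_cases h : m ∣ Nat.gcd 3 (q + 1)
  · refine Cfsg.Agent.H497.RIM.nb_psu3 hF hq hp hp2 hd ?_ hpm
    have h1 : m ∣ q + 1 := h.trans (Nat.gcd_dvd_right _ _)
    exact Nat.Coprime.coprime_dvd_left h1 (by simp)
  · intro E _ _ π hπ hker hperf hcard l hl
    exfalso
    apply h
    have h2 := (Cfsg.Agent.H68.Bounds.ker_of_hasCyclic
      (Cfsg.Agent.S2089.result 3 q hF le_rfl (by omega) (by simp)) (π := π) ⟨hπ, hker, hperf⟩).2
    rwa [hcard] at h2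

end Cfsg.Agent.H812.RIM
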