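import Mathlib

/-!
# S4816, RIM-L-PSU: the arithmetic of the Harish-Chandra degrees of `GU_n(q)` (helper812)

`U q n = ∏_{i ≤ n} (q^i - (-1)^i)`; the degree `D` of the character of `GU_n(q)` induced from `GL_k(q²) × GU_{n-2k}(q)`
satisfies `D * ((q^(2k) - 1) * U q (n-2k)) = U q n` up to a power of `q`.

* `exists_k` : `n ≥ 4`, `p` an odd prime, `p ∣ U q n`, `p ∤ q`: there is `k` with `p ∣ c` for all `D = c * t`, `t ∣ q + 1`.
-/

set_option autoImplicit false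

namespace Cfsg.Agent.H812.RIM

/-- `∏_{i ≤ n} (q^i - (-1)^i)` -/
def U (q n : ℕ) : ℕ := ∏ i ∈ Finset.range n, (if Even i then q ^ (i + 1) + 1 else q ^ (i + 1) - 1)

/-- the factor `q^i - (-1)^i` -/
def uf (q i : ℕ) : ℕ := if Even i then q ^ i - 1 else q ^ i + 1

theorem U_succ (q n : ℕ) : U q (n + 1) = U q n * uf q (n + 1) := by
  rw [U, U, Finset.prod_range_succ, uf]
  congr 1
  by_cases h : Even n
  · rw [if_pos h, if_neg (by rw [Nat.not_even_iff_odd]; exact h.add_one)]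
  · rw [if_neg h, if_pos (Nat.not_even_iff_odd.1 h).add_one]

theorem uf_cast {q : ℕ} (hq : 1 ≤ q) (i : ℕ) : ((uf q i : ℕ) : ℤ) = (-1) ^ i * ((-(q : ℤ)) ^ i - 1) := by
  rw [uf]
  have h1 : 1 ≤ q ^ i := Nat.one_le_pow _ _ hq
  by_cases h : Even i
  · rw [if_pos h, h.neg_pow, h.neg_pow, one_pow, one_mul]
    push_cast [Nat.cast_sub h1]
    rfl
  · have h' := Nat.not_even_iff_odd.1 h
    rw [if_neg h, h'.neg_pow, h'.neg_pow, one_pow]
    push_cast
    ring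

/-- divisibility of the factors -/
theorem uf_dvd {q : ℕ} (hq : 1 ≤ q) {a b : ℕ} (h : a ∣ b) : uf q a ∣ uf q b := by
  rw [← Int.natCast_dvd_natCast, uf_cast hq, uf_cast hq]
  obtain ⟨c, rfl⟩ := h
  have h1 : (-(q : ℤ)) ^ a - 1 ∣ (-(q : ℤ)) ^ (a * c) - 1 := by
    rw [pow_mul]
    simpa using sub_dvd_pow_sub_pow ((-(q : ℤ)) ^ a) 1 c
  have hu : IsUnit ((-1 : ℤ) ^ a) := (isUnit_one.neg).pow a
  exact (hu.mul_left_dvd).2 (h1.mul_left _)

theorem dvd_uf_iff {q : ℕ} (hq : 1 ≤ q) {p : ℕ} (i : ℕ) : p ∣ uf q i ↔ ((-(q : ZMod p)) ^ i = 1) := by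
  rw [← Int.natCast_dvd_natCast, uf_cast hq]
  have hu : IsUnit ((-1 : ℤ) ^ i) := (isUnit_one.neg).pow i
  rw [hu.dvd_mul_left, ← ZMod.intCast_zmod_eq_zero_iff_dvd]
  push_cast
  rw [sub_eq_zero]

theorem prime_dvd_U {q : ℕ} {p : ℕ} (hp : p.Prime) {n : ℕ} (h : p ∣ U q n) : ∃ i, 1 ≤ i ∧ i ≤ n ∧ p ∣ uf q i := by
  induction n with
  | zero =>
    rw [U, Finset.prod_range_zero] at h
    exact absurd (Nat.dvd_one.1 h) hp.one_lt.ne'
  | succ n ih =>
    rw [U_succ, hp.dvd_mul] at h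
    rcases h with h | h
    · obtain ⟨i, h1, h2, h3⟩ := ih h
      exact ⟨i, h1, by omega, h3⟩
    · exact ⟨n + 1, by omega, le_rfl, h⟩

/-- the window -/
theorem U_add (q n m : ℕ) : U q (n + m) = U q n * ∏ j ∈ Finset.range m, uf q (n + j + 1) := by
  induction m with
  | zero => simp
  | succ m ih =>
    rw [← add_assoc, U_succ, ih, Finset.prod_range_succ, mul_assoc]

theorem uf_pos {q : ℕ} (hq : 2 ≤ q) {i : ℕ} (hi : 1 ≤ i) : 0 < uf q i := by
  rw [uf]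
  split_ifs
  · have : 1 < q ^ i := Nat.one_lt_pow (by omega) (by omega)
    omega
  · positivity

theorem U_pos {q : ℕ} (hq : 2 ≤ q) (n : ℕ) : 0 < U q n := by
  induction n with
  | zero => simp [U]
  | succ n ih =>
    rw [U_succ]
    exact Nat.mul_pos ih (uf_pos hq (by omega))

/-- product of the window with two factors split off -/
theorem prod_split {m : ℕ} (f : ℕ → ℕ) {a b : ℕ} (ha : a < m) (hb : b < m) (hab : a ≠ b) :
    f a * f b ∣ ∏ j ∈ Finset.range m, f j := by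
  have h1 : ({a, b} : Finset ℕ) ⊆ Finset.range m := by
    intro x hx
    rw [Finset.mem_insert, Finset.mem_singleton] at hx
    rcases hx with rfl | rfl <;> rwa [Finset.mem_range]
  have h2 := Finset.prod_dvd_prod_of_subset _ _ f h1
  rwa [Finset.prod_pair hab] at h2

/-- **Case `e ∤ 2k`** -/
theorem dvd_of_not {q : ℕ} (hq : 2 ≤ q) {p : ℕ} (hp : p.Prime) {n k i : ℕ} (hkn : 2 * k ≤ n) (hi : n - 2 * k < i)
    (hin : i ≤ n) (hpi : p ∣ uf q i) (hpk : ¬ p ∣ q ^ (2 * k) - 1) {D : ℕ}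
    (hD : D * ((q ^ (2 * k) - 1) * U q (n - 2 * k)) = U q n) : p ∣ D := by
  have h1 : U q n = U q (n - 2 * k) * ∏ j ∈ Finset.range (2 * k), uf q (n - 2 * k + j + 1) := by
    rw [← U_add, Nat.sub_add_cancel hkn]
  rw [h1] at hD
  have h2 : D * (q ^ (2 * k) - 1) = ∏ j ∈ Finset.range (2 * k), uf q (n - 2 * k + j + 1) := by
    apply Nat.eq_of_mul_eq_mul_left (U_pos hq (n - 2 * k))
    rw [← hD]; ring
  have h3 : p ∣ ∏ j ∈ Finset.range (2 * k), uf q (n - 2 * k + j + 1) := by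
    have : i - (n - 2 * k) - 1 ∈ Finset.range (2 * k) := by rw [Finset.mem_range]; omega
    refine Dvd.dvd.trans ?_ (Finset.dvd_prod_of_mem _ this)
    rwa [show n - 2 * k + (i - (n - 2 * k) - 1) + 1 = i by omega]
  rw [← h2, hp.dvd_mul] at h3
  exact h3.resolve_right hpk

/-- **Case `e ∣ 2k`, `e ≠ 2k`**: two multiples of `e` in the window -/
theorem dvd_of_two {q : ℕ} (hq : 2 ≤ q) {m : ℕ} {n k i₀ i : ℕ} (hkn : 2 * k ≤ n) (hi₀ : n - 2 * k < i₀)
    (hi₀n : i₀ ≤ n) (hi : n - 2 * k < i) (hin : i ≤ n) (hne : i ≠ i₀) (hk : 1 ≤ k) (hki : 2 * k ∣ i₀) (hpi : m ∣ uf q i)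
    {D : ℕ} (hD : D * ((q ^ (2 * k) - 1) * U q (n - 2 * k)) = U q n) : m ∣ D := by
  have h1 : U q n = U q (n - 2 * k) * ∏ j ∈ Finset.range (2 * k), uf q (n - 2 * k + j + 1) := by
    rw [← U_add, Nat.sub_add_cancel hkn]
  rw [h1] at hD
  have h2 : D * (q ^ (2 * k) - 1) = ∏ j ∈ Finset.range (2 * k), uf q (n - 2 * k + j + 1) := by
    apply Nat.eq_of_mul_eq_mul_left (U_pos hq (n - 2 * k))
    rw [← hD]; ring
  have h3 := prod_split (m := 2 * k) (fun j => uf q (n - 2 * k + j + 1)) (a := i - (n - 2 * k) - 1)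
    (b := i₀ - (n - 2 * k) - 1) (by omega) (by omega) (by omega)
  rw [show n - 2 * k + (i - (n - 2 * k) - 1) + 1 = i by omega,
    show n - 2 * k + (i₀ - (n - 2 * k) - 1) + 1 = i₀ by omega, ← h2] at h3
  have h4 : m * (q ^ (2 * k) - 1) ∣ D * (q ^ (2 * k) - 1) := by
    refine (Nat.mul_dvd_mul hpi ?_).trans h3
    have := uf_dvd (q := q) (by omega) hki
    rwa [uf, if_pos (even_two_mul k)] at this
  have h5 : 0 < q ^ (2 * k) - 1 := by
    have : 1 < q ^ (2 * k) := Nat.one_lt_pow (by omega) (by omega)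
    omega
  exact Nat.dvd_of_mul_dvd_mul_right h5 h4

/-- the multiple of `r` in a window of length `r` -/
theorem exists_mult {r n : ℕ} (hr : 0 < r) (hn : r ≤ n) : ∃ i, n - r < i ∧ i ≤ n ∧ r ∣ i := by
  refine ⟨n / r * r, ?_, Nat.div_mul_le_self n r, Nat.dvd_mul_left _ _⟩
  have := Nat.lt_div_mul_add hr (a := n)
  omega

/-- `(q+1)³ ∣ D` for `2k ≥ 4` -/
theorem cube_dvd {q : ℕ} (hq : 2 ≤ q) {n k : ℕ} (hkn : 2 * k ≤ n) (hk : 2 ≤ k) {D : ℕ}
    (hD : D * ((q ^ (2 * k) - 1) * U q (n - 2 * k)) = U q n) : (q + 1) ^ (2 * k - 1) ∣ D := by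
  have h1 : U q n = U q (n - 2 * k) * ∏ j ∈ Finset.range (2 * k), uf q (n - 2 * k + j + 1) := by
    rw [← U_add, Nat.sub_add_cancel hkn]
  rw [h1] at hD
  have h2 : D * (q ^ (2 * k) - 1) = ∏ j ∈ Finset.range (2 * k), uf q (n - 2 * k + j + 1) := by
    apply Nat.eq_of_mul_eq_mul_left (U_pos hq (n - 2 * k))
    rw [← hD]; ring
  obtain ⟨i₀, h3, h4, h5⟩ := exists_mult (r := 2 * k) (n := n) (by omega) hkn
  have hmem : i₀ - (n - 2 * k) - 1 ∈ Finset.range (2 * k) := by rw [Finset.mem_range]; omega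
  rw [← Finset.mul_prod_erase _ _ hmem, show n - 2 * k + (i₀ - (n - 2 * k) - 1) + 1 = i₀ by omega] at h2
  have h6 : (q + 1) ^ (2 * k - 1) ∣ ∏ j ∈ (Finset.range (2 * k)).erase (i₀ - (n - 2 * k) - 1), uf q (n - 2 * k + j + 1) := by
    have h7 : ∏ j ∈ (Finset.range (2 * k)).erase (i₀ - (n - 2 * k) - 1), (q + 1) = (q + 1) ^ (2 * k - 1) := by
      rw [Finset.prod_const, Finset.card_erase_of_mem hmem, Finset.card_range]
    rw [← h7]
    apply Finset.prod_dvd_prod_of_dvd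
    intro j _
    have := uf_dvd (q := q) (by omega) (one_dvd (n - 2 * k + j + 1))
    rwa [uf, if_neg (by decide), pow_one] at this
  have h8 : q ^ (2 * k) - 1 ∣ uf q i₀ := by
    have := uf_dvd (q := q) (by omega) h5
    rwa [uf, if_pos (even_two_mul k)] at this
  have h5 : 0 < q ^ (2 * k) - 1 := by
    have : 1 < q ^ (2 * k) := Nat.one_lt_pow (by omega) (by omega)
    omega
  have h9 : (q + 1) ^ (2 * k - 1) * (q ^ (2 * k) - 1) ∣ D * (q ^ (2 * k) - 1) := by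
    rw [h2, mul_comm]
    exact Nat.mul_dvd_mul h8 h6
  exact Nat.dvd_of_mul_dvd_mul_right h5 h9

/-- the order of `-q` modulo `p` -/
theorem dvd_uf_iff_order {q : ℕ} (hq : 1 ≤ q) {p : ℕ} (i : ℕ) :
    p ∣ uf q i ↔ orderOf (-(q : ZMod p)) ∣ i := by
  rw [dvd_uf_iff hq, orderOf_dvd_iff_pow_eq_one]

/-- **The choice of `k`.** -/
theorem exists_k {q : ℕ} (hq : 2 ≤ q) {n : ℕ} (hn : 4 ≤ n) {p : ℕ} (hp : p.Prime) (hpU : p ∣ U q n) :
    ∃ k, 1 ≤ k ∧ 2 * k ≤ n ∧ (k = 1 → n ≤ 5 ∧ ¬ p ∣ q + 1) ∧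
      ∀ D c t : ℕ, D * ((q ^ (2 * k) - 1) * U q (n - 2 * k)) = U q n → t ∣ q + 1 → D = c * t → p ∣ c := by
  obtain ⟨i₁, hi1, hin, hpi⟩ := prime_dvd_U hp hpU
  set e := orderOf (-(q : ZMod p)) with he
  have hpe : ∀ i, p ∣ uf q i ↔ e ∣ i := fun i => dvd_uf_iff_order (by omega) i
  have he1 : e ∣ i₁ := (hpe _).1 hpi
  have hen : e ≤ n := (Nat.le_of_dvd (by omega) he1).trans hin
  have he0 : 0 < e := Nat.pos_of_ne_zero (by rintro h; rw [h] at he1; have := zero_dvd_iff.1 he1; omega)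
  by_cases hp1 : p ∣ q + 1
  · -- `p ∣ q + 1`
    refine ⟨n / 2, by omega, by omega, fun h => by omega, fun D c t hD ht hc => ?_⟩
    have h1 := cube_dvd hq (k := n / 2) (by omega) (by omega) hD
    obtain ⟨u, hu⟩ := ht
    have h2 : (q + 1) * (q + 1) ∣ c := by
      have h3 : (q + 1) ^ 3 ∣ D := (pow_dvd_pow _ (by omega)).trans h1
      have h4 : D * u = c * (q + 1) := by rw [hc, hu]; ring
      have h5 : (q + 1) ^ 3 ∣ c * (q + 1) := by rw [← h4]; exact h3.mul_right u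
      rw [pow_succ, pow_two] at h5
      exact Nat.dvd_of_mul_dvd_mul_right (by omega) h5
    exact (hp1.trans (Nat.dvd_mul_right _ _)).trans h2
  · have hred : ∀ {D c t : ℕ}, p ∣ D → t ∣ q + 1 → D = c * t → p ∣ c := by
      intro D c t h1 h2 h3
      rw [h3, hp.dvd_mul] at h1
      exact h1.resolve_right fun h => hp1 (h.trans h2)
    have he2 : e ≠ 1 := by
      intro h
      apply hp1
      have := (hpe 1).2 (by rw [h])
      rwa [uf, if_neg (by decide), pow_one] at this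
    have hev : ∀ k, p ∣ q ^ (2 * k) - 1 ↔ e ∣ 2 * k := by
      intro k
      rw [← hpe, uf, if_pos (even_two_mul k)]
    -- the general argument for `k` with `e ∣ 2k → e ≠ 2k`
    have gen : ∀ k, 1 ≤ k → 2 * k ≤ n → e ≠ 2 * k → (∃ i, n - 2 * k < i ∧ i ≤ n ∧ e ∣ i) →
        ∀ D c t : ℕ, D * ((q ^ (2 * k) - 1) * U q (n - 2 * k)) = U q n → t ∣ q + 1 → D = c * t → p ∣ c := by
      intro k hk hkn hne ⟨i, h1, h2, h3⟩ D c t hD ht hc
      refine hred ?_ ht hc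
      by_cases hd : e ∣ 2 * k
      · obtain ⟨i₀, h4, h5, h6⟩ := exists_mult (r := 2 * k) (n := n) (by omega) hkn
        have hlt : e < 2 * k := lt_of_le_of_ne (Nat.le_of_dvd (by omega) hd) hne
        -- `i₀ - e` or `i₀ + e` is in the window
        have hi₀e : e ∣ i₀ := hd.trans h6
        have h2e : 2 * e ≤ 2 * k := by
          obtain ⟨r, hr⟩ := hd
          have : 2 ≤ r := by
            by_contra hcon
            have : r = 0 ∨ r = 1 := by omega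
            rcases this with rfl | rfl <;> omega
          calc 2 * e = e * 2 := by ring
            _ ≤ e * r := Nat.mul_le_mul_left _ this
            _ = 2 * k := hr.symm
        by_cases h7 : i₀ + e ≤ n
        · exact dvd_of_two hq hkn h4 h5 (i := i₀ + e) (by omega) h7 (by omega) hk h6
            ((hpe _).2 (Dvd.dvd.add hi₀e dvd_rfl)) hD
        · exact dvd_of_two hq hkn h4 h5 (i := i₀ - e) (by omega) (by omega) (by omega) hk h6
            ((hpe _).2 (Nat.dvd_sub hi₀e dvd_rfl)) hD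
      · exact dvd_of_not hq hp hkn h1 h2 ((hpe _).2 h3) (fun h => hd ((hev k).1 h)) hD
    by_cases hmain : e = 2 * (n / 2)
    · -- `e = n` or `e = n - 1` even
      by_cases h5 : n ≤ 5
      · refine ⟨1, le_rfl, by omega, fun _ => ⟨h5, hp1⟩, gen 1 le_rfl (by omega) (by omega) ⟨e, by omega, hen, dvd_rfl⟩⟩
      · refine ⟨n / 2 - 1, by omega, by omega, fun h => by omega,
          gen (n / 2 - 1) (by omega) (by omega) (by omega) ⟨e, by omega, hen, dvd_rfl⟩⟩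
    · refine ⟨n / 2, by omega, by omega, fun h => by omega, gen (n / 2) (by omega) (by omega) hmain ?_⟩
      exact ⟨e, by omega, hen, dvd_rfl⟩

/-- **`n = 3`**: `k = 1` unless `p ∣ q - 1` -/
theorem three {q : ℕ} (hq : 2 ≤ q) {p : ℕ} (hp : p.Prime) (hp3 : p ≠ 3) (hpU : p ∣ U q 3) (hp1 : ¬ p ∣ q - 1) :
    ∀ D c t : ℕ, D * ((q ^ (2 * 1) - 1) * U q (3 - 2 * 1)) = U q 3 → t ∣ 3 → D = c * t → p ∣ c := by
  intro D c t hD ht hc
  have e1 : U q 1 = q + 1 := by rw [U_succ]; simp [U, uf]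
  have e3 : U q 3 = (q + 1) * (q ^ 2 - 1) * (q ^ 3 + 1) := by
    rw [U_succ, U_succ, e1]
    simp [uf, Nat.even_iff]
  have hq2 : q ^ 2 - 1 = (q + 1) * (q - 1) := by
    have := Nat.sq_sub_sq q 1
    simpa using this
  have h0 : 0 < q ^ 2 - 1 := by
    rw [hq2]
    exact Nat.mul_pos (by omega) (by omega)
  have hD2 : D = q ^ 3 + 1 := by
    rw [show 3 - 2 * 1 = 1 from rfl, e1, e3, mul_one] at hD
    apply Nat.eq_of_mul_eq_mul_right (Nat.mul_pos h0 (show 0 < q + 1 by omega))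
    rw [hD]
    ring
  have h4 : p ∣ D := by
    rw [e3, hp.dvd_mul, hp.dvd_mul, hq2, hp.dvd_mul] at hpU
    rw [hD2]
    have h5 : q + 1 ∣ q ^ 3 + 1 := by
      have := Odd.nat_add_dvd_pow_add_pow q 1 (n := 3) (by decide)
      simpa using this
    rcases hpU with (h | h | h) | h
    · exact h.trans h5
    · exact h.trans h5
    · exact absurd h hp1
    · exact h
  rw [hc, hp.dvd_mul] at h4
  exact h4.resolve_right fun h => hp3 ((Nat.prime_dvd_prime_iff_eq hp Nat.prime_three).1 (h.trans ht))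

/-- exact division -/
theorem exists_D {q : ℕ} (hq : 2 ≤ q) {n k : ℕ} (hk : 1 ≤ k) (hkn : 2 * k ≤ n) :
    ∃ D, D * ((q ^ (2 * k) - 1) * U q (n - 2 * k)) = U q n := by
  have h1 : U q n = U q (n - 2 * k) * ∏ j ∈ Finset.range (2 * k), uf q (n - 2 * k + j + 1) := by
    rw [← U_add, Nat.sub_add_cancel hkn]
  obtain ⟨i₀, h3, h4, h5⟩ := exists_mult (r := 2 * k) (n := n) (by omega) hkn
  have hmem : i₀ - (n - 2 * k) - 1 ∈ Finset.range (2 * k) := by rw [Finset.mem_range]; omega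
  have h8 : q ^ (2 * k) - 1 ∣ ∏ j ∈ Finset.range (2 * k), uf q (n - 2 * k + j + 1) := by
    refine Dvd.dvd.trans ?_ (Finset.dvd_prod_of_mem _ hmem)
    have := uf_dvd (q := q) (by omega) h5
    rw [uf, if_pos (even_two_mul k)] at this
    rwa [show n - 2 * k + (i₀ - (n - 2 * k) - 1) + 1 = i₀ by omega]
  obtain ⟨D, hD⟩ := h8
  exact ⟨D, by rw [h1, hD]; ring⟩

theorem dvd_of_frame {q : ℕ} (hq : 2 ≤ q) {n k : ℕ} (hk : 1 ≤ k) {D M : ℕ}
    (hD : D * ((q ^ (2 * k) - 1) * U q (n - 2 * k)) = U q n)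
    (h : U q n ∣ M * ((q ^ (2 * k) - 1) * U q (n - 2 * k))) : D ∣ M := by
  rw [← hD] at h
  refine Nat.dvd_of_mul_dvd_mul_right (Nat.mul_pos ?_ (U_pos hq _)) h
  have : 1 < q ^ (2 * k) := Nat.one_lt_pow (by omega) (by omega)
  omega

/-- **The choice of `k`**, form for a degree `c * t` known up to a power of `r` from below -/
theorem exists_k_dvd {q : ℕ} (hq : 2 ≤ q) {n : ℕ} (hn : 4 ≤ n) {p : ℕ} (hp : p.Prime) (hpU : p ∣ U q n) :
    ∃ k, 1 ≤ k ∧ 2 * k ≤ n ∧ (k = 1 → n ≤ 5 ∧ ¬ p ∣ q + 1) ∧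
      ∀ r e c t : ℕ, ¬ p ∣ r → U q n ∣ r ^ e * (c * t) * ((q ^ (2 * k) - 1) * U q (n - 2 * k)) → t ∣ q + 1 → p ∣ c := by
  obtain ⟨k, hk, hkn, hk1, hmain⟩ := exists_k hq hn hp hpU
  refine ⟨k, hk, hkn, hk1, fun r e c t hr h ht => ?_⟩
  obtain ⟨D, hD⟩ := exists_D hq hk hkn
  have h1 : D ∣ r ^ e * (c * t) := dvd_of_frame hq hk hD h
  have hrp : ¬ p ∣ r ^ e := fun h => hr (hp.dvd_of_dvd_pow h)
  by_cases hp1 : p ∣ q + 1
  · have hk2 : 2 ≤ k := by
      by_contra hcon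
      exact (hk1 (by omega)).2 hp1
    have h2 : (q + 1) ^ 3 ∣ r ^ e * (c * t) := ((pow_dvd_pow _ (by omega)).trans (cube_dvd hq hkn hk2 hD)).trans h1
    obtain ⟨u, hu⟩ := ht
    have h3 : (q + 1) ^ 3 ∣ r ^ e * c * (q + 1) := by
      refine h2.trans ⟨u, ?_⟩
      rw [hu]
      ring
    rw [pow_succ] at h3
    have h4 : (q + 1) ^ 2 ∣ r ^ e * c := Nat.dvd_of_mul_dvd_mul_right (by omega) h3
    have h5 : p ∣ r ^ e * c := (hp1.trans (dvd_pow_self _ (by norm_num))).trans h4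
    exact (hp.dvd_mul.1 h5).resolve_left hrp
  · have h2 : p ∣ D := hmain D D 1 hD (one_dvd _) (mul_one _).symm
    have h3 := h2.trans h1
    rw [hp.dvd_mul, hp.dvd_mul] at h3
    rcases h3 with h3 | h3 | h3
    · exact absurd h3 hrp
    · exact h3
    · exact absurd (h3.trans ht) hp1

/-- `n = 3`, form for a degree known up to a power of `r` from below -/
theorem three_dvd {q : ℕ} (hq : 2 ≤ q) {p : ℕ} (hp : p.Prime) (hp3 : p ≠ 3) (hpU : p ∣ U q 3) (hp1 : ¬ p ∣ q - 1) :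
    ∀ r e c t : ℕ, ¬ p ∣ r → U q 3 ∣ r ^ e * (c * t) * ((q ^ (2 * 1) - 1) * U q (3 - 2 * 1)) → t ∣ 3 → p ∣ c := by
  intro r e c t hr h ht
  obtain ⟨D, hD⟩ := exists_D hq (n := 3) (k := 1) le_rfl (by norm_num)
  have h1 : D ∣ r ^ e * (c * t) := dvd_of_frame hq le_rfl hD h
  have hrp : ¬ p ∣ r ^ e := fun h => hr (hp.dvd_of_dvd_pow h)
  have h2 : p ∣ D := three hq hp hp3 hpU hp1 D D 1 hD (one_dvd _) (mul_one _).symm
  have h3 := h2.trans h1
  rw [hp.dvd_mul, hp.dvd_mul] at h3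
  rcases h3 with h3 | h3 | h3
  · exact absurd h3 hrp
  · exact h3
  · exact absurd ((Nat.prime_dvd_prime_iff_eq hp Nat.prime_three).1 (h3.trans ht)) hp3

end Cfsg.Agent.H812.RIM
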