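import Cfsg.Agent.H113.PSU.Levi
import Cfsg.Agent.H812.RIM.UNum

/-!
# S4816, RIM-L-PSU: the degree of the Harish-Chandra induced characters of `GU_n(q)` (helper812)

`dg_cond` : a divisibility condition on `D = ∏_{n-2k < i ≤ n} (q^i - (-1)^i) / (q^(2k) - 1)` holds for `dg (hermF) k`.
-/

set_option autoImplicit false

namespace Cfsg.Agent.H812.RIM

open Cfsg Cfsg.Agent.H477.HC

universe u

theorem uu_eq (q i : ℕ) : Cfsg.Agent.H113.PSU.Levi.uu q i = uf q i := rfl

theorem uf_coprime {q : ℕ} (hq : 1 ≤ q) {i : ℕ} (hi : 1 ≤ i) : Nat.Coprime (uf q i) q := by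
  have h1 : q ∣ q ^ i := dvd_pow_self q (by omega)
  have h2 : 1 ≤ q ^ i := Nat.one_le_pow _ _ hq
  rw [Nat.coprime_iff_gcd_eq_one]
  have h3 : Nat.gcd (uf q i) q ∣ uf q i := Nat.gcd_dvd_left _ _
  have h4 : Nat.gcd (uf q i) q ∣ q ^ i := (Nat.gcd_dvd_right _ _).trans h1
  rw [uf] at h3
  apply Nat.dvd_one.1
  split_ifs at h3 with h5
  · rw [uf, if_pos h5]
    rw [uf, if_pos h5] at h4
    exact (Nat.dvd_sub_iff_right h2 h4).1 h3
  · rw [uf, if_neg h5]
    rw [uf, if_neg h5] at h4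
    exact (Nat.dvd_add_right h4).1 h3

theorem U_coprime {q : ℕ} (hq : 1 ≤ q) (n : ℕ) : Nat.Coprime (U q n) q := by
  induction n with
  | zero => simp [U]
  | succ n ih =>
    rw [U_succ]
    exact Nat.Coprime.mul_left ih (uf_coprime hq (by omega))

/-- `U` and the product of the factors -/
theorem U_eq_prod (q n : ℕ) : U q n = ∏ i ∈ Finset.range n, uf q (i + 1) := by
  induction n with
  | zero => simp [U]
  | succ n ih => rw [U_succ, ih, Finset.prod_range_succ]

/-- the frame: `U q n` divides `l ^ e * dg * ((q ^ (2k) - 1) * U q n')` -/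
theorem U_dvd_dg {F : Type u} [Field F] [Fintype F] {q : ℕ} (hq : Nat.card F = q ^ 2) {l : ℕ} [Fact l.Prime]
    [CharP F l] {k n' : ℕ} (hk : 0 < k) :
    ∃ e, U q (k + (k + n')) ∣ l ^ e * dg (CForm.hermF F hq (k + (k + n'))) k * ((q ^ (2 * k) - 1) * U q n') := by
  obtain ⟨e, he⟩ := Cfsg.Agent.H113.PSU.Levi.dvd_dg hq (p := l) (k := k) (n' := n') hk
  refine ⟨e, ?_⟩
  rw [U_eq_prod, ← Finset.prod_range_mul_prod_Ico _ (by omega : n' ≤ k + (k + n')), ← U_eq_prod]
  refine (Nat.mul_dvd_mul_left _ he).trans (dvd_of_eq ?_)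
  ring

/-- **The degree condition.** -/
theorem dg_cond {F : Type u} [Field F] [Fintype F] {q : ℕ} (hq : Nat.card F = q ^ 2) {k n' : ℕ} (hk : 0 < k) {p T : ℕ}
    (h : ∀ D c t : ℕ, D * ((q ^ (2 * k) - 1) * U q n') = U q (k + (k + n')) → t ∣ T → D = c * t → p ∣ c) :
    ∀ c t : ℕ, t ∣ T → c * t = dg (CForm.hermF F hq (k + (k + n'))) k → p ∣ c := by
  intro c t ht hct
  have hq2 : 2 ≤ q := CForm.two_le_of_card hq
  obtain ⟨l, hl⟩ := CharP.exists F
  have hlp : l.Prime := (CharP.char_is_prime_or_zero F l).resolve_right (CharP.char_ne_zero_of_finite F l)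
  have : Fact l.Prime := ⟨hlp⟩
  obtain ⟨s, hs⟩ := card_pow F l
  have hlq : l ∣ q := by
    have h1 : l ∣ q ^ 2 := by
      rw [← hq, hs]
      apply dvd_pow_self
      rintro rfl
      rw [pow_zero] at hs
      have := Finite.one_lt_card (α := F)
      omega
    exact hlp.dvd_of_dvd_pow h1
  obtain ⟨e, he⟩ := U_dvd_dg hq (l := l) (k := k) (n' := n') hk
  obtain ⟨D, hD⟩ := exists_D hq2 (n := k + (k + n')) (k := k) (by omega) (by omega)
  have hn' : k + (k + n') - 2 * k = n' := by omega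
  rw [hn'] at hD
  have h1 : D ∣ l ^ e * dg (CForm.hermF F hq (k + (k + n'))) k := by
    have h2 := dvd_of_frame hq2 (n := k + (k + n')) (k := k) (by omega) (D := D)
      (M := l ^ e * dg (CForm.hermF F hq (k + (k + n'))) k) (by rw [hn']; exact hD) (by rw [hn']; exact he)
    exact h2
  have hDl : Nat.Coprime D (l ^ e) := by
    have h3 : Nat.Coprime (U q (k + (k + n'))) l := (U_coprime (by omega) _).coprime_dvd_right hlq
    exact ((h3.coprime_dvd_left ⟨_, hD.symm⟩).pow_right e)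
  have h4 : D ∣ c * t := by
    rw [hct]
    exact hDl.dvd_of_dvd_mul_left h1
  have hD0 : 0 < D := by
    rcases Nat.eq_zero_or_pos D with h | h
    · rw [h, zero_mul] at hD
      have := U_pos hq2 (k + (k + n'))
      omega
    · exact h
  have hg : 0 < Nat.gcd D t := Nat.gcd_pos_of_pos_left _ hD0
  have h5 : D / Nat.gcd D t ∣ c := by
    have h6 : Nat.Coprime (D / Nat.gcd D t) (t / Nat.gcd D t) := Nat.coprime_div_gcd_div_gcd hg
    apply h6.dvd_of_dvd_mul_right
    apply Nat.dvd_of_mul_dvd_mul_right hg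
    rw [mul_assoc, Nat.div_mul_cancel (Nat.gcd_dvd_left D t), Nat.div_mul_cancel (Nat.gcd_dvd_right D t)]
    exact h4
  exact (h D (D / Nat.gcd D t) (Nat.gcd D t) hD ((Nat.gcd_dvd_right D t).trans ht)
    (Nat.div_mul_cancel (Nat.gcd_dvd_left D t)).symm).trans h5

end Cfsg.Agent.H812.RIM
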